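import Cfsg.Agent.H150.MF.Big
import Cfsg.Agent.H85.Pw.ZetaN
import Cfsg.Agent.H934.MF.Diag
import Cfsg.Agent.H162.GaussReg

/-!
# Factorisations of `L U` in `GL_n(q)`, `q ≥ 3`, and an element of `GL_6(3)` (S2453, `E₆(3)`)

* `gl_lu` : `L U` is a product of a conjugate of `T` and a conjugate of `T⁻¹` (under `SL_n(F)`), `T` cyclic with a simple
  rational eigenvalue;
* `exists_six` : the element `T` of `GL_6(3)` with eigenvalues `1`, `ζ^(3^a)`, `ζ` of order `242`.
-/

set_option autoImplicit false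

namespace Cfsg.Agent.H584.War.Gl

open Module Polynomial Cfsg.Agent.H166.Cov Cfsg.Agent.H150.MF

section

universe u

variable {F : Type u} [Field F]

theorem mat_of_sims {n : ℕ} (c : Matrix (Fin n) (Fin n) F) {T : End F (Fin n → F)} (h : SimS (Matrix.toLin' c) T) :
    ∃ g : Matrix.SpecialLinearGroup (Fin n) F, LinearMap.toMatrix' T = g.1 * c * (g⁻¹).1 := by
  obtain ⟨e, he, h⟩ := h
  have h1 : (LinearMap.toMatrix' (e : (Fin n → F) →ₗ[F] (Fin n → F))).det = 1 := by
    rw [LinearMap.det_toMatrix', he]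
  have h2 : LinearMap.toMatrix' (e : (Fin n → F) →ₗ[F] (Fin n → F)) * c =
      LinearMap.toMatrix' T * LinearMap.toMatrix' (e : (Fin n → F) →ₗ[F] (Fin n → F)) := by
    apply Matrix.toLin'.injective
    rw [Matrix.toLin'_mul, Matrix.toLin'_mul, Matrix.toLin'_toMatrix', Matrix.toLin'_toMatrix']
    exact LinearMap.ext fun x => h x
  obtain ⟨g, hg⟩ : ∃ g : Matrix.SpecialLinearGroup (Fin n) F,
      (g : Matrix (Fin n) (Fin n) F) = LinearMap.toMatrix' (e : (Fin n → F) →ₗ[F] (Fin n → F)) := ⟨⟨_, h1⟩, rfl⟩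
  rw [← hg] at h2
  refine ⟨g, ?_⟩
  have h3 : g.1 * (g⁻¹).1 = 1 := congrArg Subtype.val (mul_inv_cancel g)
  rw [h2, mul_assoc, h3, mul_one]

/-- **lower times upper unitriangular** -/
theorem gl_lu [Finite F] (hq : 3 ≤ Nat.card F) {n : ℕ} (hn : 2 ≤ n) {T T' : Matrix (Fin n) (Fin n) F} (hT : NiceM T)
    (h1 : T * T' = 1) (h2 : T' * T = 1) {L U : Matrix.SpecialLinearGroup (Fin n) F}
    (hL : L ∈ Cfsg.Agent.H162.GaussSL.LT n F) (hU : U ∈ Cfsg.Agent.H162.GaussSL.UT n F) :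
    ∃ g h : Matrix.SpecialLinearGroup (Fin n) F, (L * U).1 = (g.1 * T * (g⁻¹).1) * (h.1 * T' * (h⁻¹).1) := by
  by_cases hc : ∃ c : F, (L * U).1 = c • (1 : Matrix (Fin n) (Fin n) F)
  · obtain ⟨c, hc⟩ := hc
    obtain ⟨rfl, rfl⟩ := Cfsg.Agent.H162.GaussSL.scalar_case (by omega) hL hU hc
    refine ⟨1, 1, ?_⟩
    have h3 : ((1 : Matrix.SpecialLinearGroup (Fin n) F)⁻¹).1 = 1 := by rw [inv_one]; rfl
    have h4 : (1 : Matrix.SpecialLinearGroup (Fin n) F).1 = 1 := rfl
    rw [h3, h4, one_mul, h4]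
    simp only [Matrix.one_mul, Matrix.mul_one, h1]
  · push Not at hc
    obtain ⟨ν, h0⟩ := hT
    have hf : finrank F (Fin n → F) = n := finrank_fin_fun F
    obtain ⟨hX, hF⟩ := Nice.of_inv (T := Matrix.toLin' T') h0
      (by rw [Module.End.mul_eq_comp, ← Matrix.toLin'_mul, h1, Matrix.toLin'_one]; rfl)
      (by rw [Module.End.mul_eq_comp, ← Matrix.toLin'_mul, h2, Matrix.toLin'_one]; rfl)
    have hd : T.det * T'.det = 1 := by rw [← Matrix.det_mul, h1, Matrix.det_one]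
    obtain ⟨M, X, φ, h3, h4, h5, -, -⟩ := exists_fac3' (V := Fin n → F) hq (by rw [hf]; exact hn) (ns_toLin hc) h0 hX
      (by rw [LinearMap.det_toLin', (L * U).2]; exact one_ne_zero)
      (by rw [LinearMap.det_toLin', LinearMap.det_toLin', LinearMap.det_toLin', (L * U).2, hd])
    obtain ⟨g, hg⟩ := mat_of_sims T ((Full.of_nice h0).sims h3)
    obtain ⟨h, hh⟩ := mat_of_sims T' (hF.sims h4)
    refine ⟨g, h, ?_⟩
    rw [← hg, ← hh, ← LinearMap.toMatrix'_mul, ← h5, LinearMap.toMatrix'_toLin']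

/-- a matrix with a given characteristic polynomial `(X - ν) p` -/
theorem exists_niceM' {n : ℕ} {ν : F} {p : F[X]} (hp : p.Monic) (hpd : p.natDegree + 1 = n) (hν : p.eval ν ≠ 0) :
    ∃ c : Matrix (Fin n) (Fin n) F, c.charpoly = (X - C ν) * p ∧ NiceM c := by
  have hm : ((X - C ν) * p).Monic := (monic_X_sub_C ν).mul hp
  have hd : ((X - C ν) * p).natDegree = n := by
    rw [(monic_X_sub_C ν).natDegree_mul hp, natDegree_X_sub_C, add_comm, hpd]
  obtain ⟨T, hT, hTc⟩ := exists_coc (V := Fin n → F) hm (by rw [hd, finrank_fin_fun])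
  refine ⟨LinearMap.toMatrix' T, ?_, ν, ?_⟩
  · rw [← Matrix.charpoly_toLin', Matrix.toLin'_toMatrix', hTc]
  · rw [Matrix.toLin'_toMatrix']
    exact ⟨hT, p, hTc, hν⟩

end

/-- conjugation in `SL_n` to a diagonal matrix -/
theorem exists_sl_diag {K' : Type*} [Field K'] {n : ℕ} {T : Matrix (Fin (n + 1)) (Fin (n + 1)) K'} {lam : Fin (n + 1) → K'}
    {g : GL (Fin (n + 1)) K'} (hT : T = (g : Matrix (Fin (n + 1)) (Fin (n + 1)) K') * Matrix.diagonal lam *
      ((g⁻¹ : GL (Fin (n + 1)) K') : Matrix (Fin (n + 1)) (Fin (n + 1)) K')) :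
    ∃ A : Matrix.SpecialLinearGroup (Fin (n + 1)) K', A.1 * T * (A⁻¹).1 = Matrix.diagonal lam := by
  obtain ⟨d, A, hA⟩ := Cfsg.Agent.H162.GaussReg.exists_dd g⁻¹
  refine ⟨A, ?_⟩
  have h1 : (A : GL (Fin (n + 1)) K') = (Cfsg.Agent.H162.GaussReg.dd n d)⁻¹ * g⁻¹ := by rw [hA]; group
  have h2 : ((A : GL (Fin (n + 1)) K'))⁻¹ = g * Cfsg.Agent.H162.GaussReg.dd n d := by rw [h1]; group
  have h3 : (A : GL (Fin (n + 1)) K').1 = ((Cfsg.Agent.H162.GaussReg.dd n d)⁻¹ : GL (Fin (n + 1)) K').1 *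
    (g⁻¹ : GL (Fin (n + 1)) K').1 := by rw [h1]; rfl
  have h4 : (((A : GL (Fin (n + 1)) K'))⁻¹ : GL (Fin (n + 1)) K').1 = g.1 * (Cfsg.Agent.H162.GaussReg.dd n d).1 := by
    rw [h2]; rfl
  have h5 : (g⁻¹ : GL (Fin (n + 1)) K').1 * g.1 = 1 := by rw [← Units.val_mul, inv_mul_cancel, Units.val_one]
  have h6 : ((Cfsg.Agent.H162.GaussReg.dd n d)⁻¹ : GL (Fin (n + 1)) K').1 *
      (Matrix.diagonal lam * (Cfsg.Agent.H162.GaussReg.dd n d).1) = Matrix.diagonal lam := by
    change Matrix.diagonal _ * (Matrix.diagonal _ * Matrix.diagonal _) = _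
    rw [Matrix.diagonal_mul_diagonal, Matrix.diagonal_mul_diagonal]
    congr 1
    funext i
    by_cases h : i = 0 <;> simp [h]
    field_simp
  have h7 : (A⁻¹).1 = (((A : GL (Fin (n + 1)) K'))⁻¹ : GL (Fin (n + 1)) K').1 := rfl
  have h8 : A.1 = (A : GL (Fin (n + 1)) K').1 := rfl
  rw [hT, h7, h8, h3, h4]
  calc _ = ((Cfsg.Agent.H162.GaussReg.dd n d)⁻¹ : GL (Fin (n + 1)) K').1 * ((g⁻¹ : GL (Fin (n + 1)) K').1 * g.1) *
        Matrix.diagonal lam * ((g⁻¹ : GL (Fin (n + 1)) K').1 * g.1) * (Cfsg.Agent.H162.GaussReg.dd n d).1 := by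
          simp only [Matrix.mul_assoc]
    _ = Matrix.diagonal lam := by rw [h5, Matrix.mul_one, Matrix.mul_one, Matrix.mul_assoc, h6]

/-- the element of `GL_6(3)` -/
structure Six {K' : Type*} [Field K'] (i : ZMod 3 →+* K') (T : Matrix (Fin 6) (Fin 6) (ZMod 3)) (lam : Fin 6 → K') :
    Prop where
  nice : NiceM T
  det : T.det = -1
  diag : ∃ A : Matrix.SpecialLinearGroup (Fin 6) K', A.1 * T.map i * (A⁻¹).1 = Matrix.diagonal lam
  pow : ∀ a, lam a ^ 242 = 1
  prod : ∏ a, lam a = -1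
  sub : ∀ S : Finset (Fin 6), S.card = 3 → (∏ a ∈ S, lam a) ^ 2 ≠ 1

theorem z3 : ∀ x : ZMod 3, x ≠ 0 → x ≠ 1 → x = -1 := by decide

open Cfsg.Agent.H224.Ore.Zeta in
theorem exists_six : ∃ (K' : Type) (_ : Field K') (_ : Finite K') (i : ZMod 3 →+* K')
    (T : Matrix (Fin 6) (Fin 6) (ZMod 3)) (lam : Fin 6 → K'), Six i T lam := by
  classical
  have hF : Fact (Nat.Prime 3) := ⟨Nat.prime_three⟩
  have hc3 : Nat.card (ZMod 3) = 3 := by simp
  obtain ⟨K', iF, iK, i, ν, p, lam, Z, hZ⟩ := Cfsg.Agent.H85.Pw.exists_zetN (ZMod 3) (m := 5) (N := 242) (by norm_num)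
    (by rw [hc3]; norm_num) (by rw [hc3]; decide)
  have hch : CharP K' 3 := charP_of_injective_ringHom i.injective 3
  -- the rational eigenvalue
  obtain ⟨a₀, ha₀⟩ : ∃ a₀, lam a₀ = i ν := by
    have h1 : (((X - C ν) * p).map i).eval (i ν) = 0 := by
      rw [Polynomial.map_mul, eval_mul, Polynomial.map_sub, map_X, map_C, eval_sub, eval_X, eval_C, sub_self, zero_mul]
    rw [Z.split, eval_prod, Finset.prod_eq_zero_iff] at h1
    obtain ⟨a, -, ha⟩ := h1
    rw [eval_sub, eval_X, eval_C, sub_eq_zero] at ha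
    exact ⟨a, ha.symm⟩
  have hν0 : ν ≠ 0 := fun h => Z.ne0 a₀ (by rw [ha₀, h, map_zero])
  have hν1 : ν ≠ 1 := fun h => by
    have h1 := Z.sub {a₀} (Finset.singleton_nonempty _) (fun h2 => by
      have h3 := congrArg Finset.card h2
      rw [Finset.card_singleton, Finset.card_univ, Fintype.card_fin] at h3
      omega)
    rw [Finset.prod_singleton, ha₀, h, map_one] at h1
    exact h1 rfl
  have hν : ν = -1 := z3 ν hν0 hν1
  have hl0 : lam a₀ = -1 := by rw [ha₀, hν, map_neg, map_one]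
  have hp1 : p.eval 1 ≠ 0 := by
    intro h
    have h1 := Z.deg
    exact Z.irr.not_isRoot_of_natDegree_ne_one (by omega) h
  obtain ⟨T, hT1, hT2⟩ := exists_niceM' (n := 6) (ν := (1 : ZMod 3)) Z.monic Z.deg hp1
  -- the eigenvalues
  have hne1 : ∀ a, lam a ≠ 1 := fun a => by
    have h1 := Z.sub {a} (Finset.singleton_nonempty _) (fun h2 => by
      have h3 := congrArg Finset.card h2
      rw [Finset.card_singleton, Finset.card_univ, Fintype.card_fin] at h3
      omega)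
    rwa [Finset.prod_singleton] at h1
  let lam' : Fin 6 → K' := Function.update lam a₀ 1
  have hl1 : lam' a₀ = 1 := Function.update_self _ _ _
  have hl2 : ∀ a, a ≠ a₀ → lam' a = lam a := fun a ha => Function.update_of_ne ha _ _
  have hinj : Function.Injective lam' := by
    intro a b hab
    by_cases h1 : a = a₀
    · by_cases h2 : b = a₀
      · rw [h1, h2]
      · rw [h1, hl1, hl2 b h2] at hab
        exact absurd hab.symm (hne1 b)
    · by_cases h2 : b = a₀
      · rw [h2, hl1, hl2 a h1] at hab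
        exact absurd hab (hne1 a)
      · rw [hl2 a h1, hl2 b h2] at hab
        exact Z.inj hab
  have hE : ∀ f : K' → K'[X], ∏ a ∈ Finset.univ.erase a₀, f (lam' a) = ∏ a ∈ Finset.univ.erase a₀, f (lam a) := fun f =>
    Finset.prod_congr rfl fun a ha => by rw [hl2 a (Finset.ne_of_mem_erase ha)]
  have hpm : p.map i = ∏ a ∈ Finset.univ.erase a₀, (X - C (lam a)) := by
    have h1 : (X - C (i ν)) * p.map i = (X - C (i ν)) * ∏ a ∈ Finset.univ.erase a₀, (X - C (lam a)) := by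
      have h2 : (X - C (i ν)) * p.map i = ((X - C ν) * p).map i := by
        rw [Polynomial.map_mul, Polynomial.map_sub, map_X, map_C]
      rw [h2, Z.split, ← ha₀, Finset.mul_prod_erase Finset.univ (fun a => X - C (lam a)) (Finset.mem_univ a₀)]
    exact mul_left_cancel₀ (X_sub_C_ne_zero _) h1
  have hsp : T.charpoly.map i = ∏ a, (X - C (lam' a)) := by
    rw [hT1, Polynomial.map_mul, Polynomial.map_sub, map_X, map_C, map_one, hpm, ← hE fun x => X - C x,
      ← Finset.mul_prod_erase Finset.univ (fun a => X - C (lam' a)) (Finset.mem_univ a₀), hl1]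
  obtain ⟨g, hg⟩ := Cfsg.Agent.H934.MF.diag_map i T hinj hsp
  have hprod : ∏ a, lam' a = -1 := by
    have h1 := Z.prod
    rw [← Finset.mul_prod_erase Finset.univ _ (Finset.mem_univ a₀), hl0] at h1
    rw [← Finset.mul_prod_erase Finset.univ _ (Finset.mem_univ a₀), hl1, one_mul,
      Finset.prod_congr rfl fun a ha => hl2 a (Finset.ne_of_mem_erase ha)]
    rw [neg_one_mul] at h1
    rw [← h1, neg_neg]
  refine ⟨K', iF, iK, i, T, lam', hT2, ?_, exists_sl_diag hg, ?_, hprod, ?_⟩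
  · apply i.injective
    have h1 : i T.det = (T.map i).det := by rw [← RingHom.mapMatrix_apply, ← RingHom.map_det]
    rw [h1, hg, Matrix.det_mul, Matrix.det_mul, mul_right_comm, ← Matrix.det_mul, ← Units.val_mul, mul_inv_cancel,
      Units.val_one, Matrix.det_one, one_mul, Matrix.det_diagonal, hprod, map_neg, map_one]
  · intro a
    by_cases h1 : a = a₀
    · rw [h1, hl1, one_pow]
    · rw [hl2 a h1]
      exact hZ a
  · intro S hS h1
    have huniv : (Finset.univ : Finset (Fin 6)).card = 6 := by simp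
    -- the product up to sign
    rw [pow_two] at h1
    have hne : ∀ R : Finset (Fin 6), R.card < 6 → R ≠ Finset.univ := fun R hR h => by rw [h, huniv] at hR; omega
    by_cases h0 : a₀ ∈ S
    · have h3 : ∏ a ∈ S, lam' a = ∏ a ∈ S.erase a₀, lam a := by
        rw [← Finset.mul_prod_erase S _ h0, hl1, one_mul]
        exact Finset.prod_congr rfl fun a ha => hl2 a (Finset.ne_of_mem_erase ha)
      have h4 : ∏ a ∈ S, lam a = - ∏ a ∈ S.erase a₀, lam a := by
        rw [← Finset.mul_prod_erase S _ h0, hl0, neg_one_mul]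
      have h5 : (S.erase a₀).card = 2 := by rw [Finset.card_erase_of_mem h0, hS]
      rcases mul_self_eq_one_iff.1 h1 with h2 | h2
      · exact Z.sub (S.erase a₀) (Finset.card_pos.1 (by omega)) (hne _ (by omega)) (h3 ▸ h2)
      · refine Z.sub S (Finset.card_pos.1 (by omega)) (hne _ (by omega)) ?_
        rw [h4, ← h3, h2, neg_neg]
    · have h3 : ∏ a ∈ S, lam' a = ∏ a ∈ S, lam a :=
        Finset.prod_congr rfl fun a ha => hl2 a fun h => h0 (h ▸ ha)
      rcases mul_self_eq_one_iff.1 h1 with h2 | h2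
      · exact Z.sub S (Finset.card_pos.1 (by omega)) (hne _ (by omega)) (h3 ▸ h2)
      · have h5 : (insert a₀ S).card = 4 := by rw [Finset.card_insert_of_notMem h0, hS]
        refine Z.sub (insert a₀ S) (Finset.card_pos.1 (by omega)) (hne _ (by omega)) ?_
        rw [Finset.prod_insert h0, ← h3, h2, hl0, neg_one_mul, neg_neg]

end Cfsg.Agent.H584.War.Gl
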