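import Cfsg.Agent.H928.War.Rgd
import Cfsg.Agent.H162.GaussExcMain

/-!
# Regular elements of the torus: the word `x ^ e y ^ e` (S2453)

* `ss_torus` : `SS p e` for `D.group K` if `H e < q - 1`, `H` the bound for the heights of the roots;
* `ssT_E6`, `ssT_F4` (`H = 11`), `ssT_G2` (`H = 5`).
-/

set_option autoImplicit false
set_option linter.unusedSectionVars false

namespace Cfsg.Agent.H584.War.Tor

open CoxeterSystem Cfsg.Agent.ChevalleyStructure.CoxeterGeom Cfsg.Agent.Tits.Roots Cfsg.Agent.Tits.Core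
  Cfsg.Agent.Nodes.Reps Cfsg.Agent.Nodes.BNOf Cfsg.Agent.Nodes.RGDLib Cfsg.Agent.Nodes.Bruhat
  Cfsg.Agent.Nodes.OppDec Cfsg.Agent.Nodes.LeviDec Cfsg.Agent.Nodes.KindChev Cfsg.Agent.Nodes.ChevCls
  Cfsg.Agent.OddHalf.NI.ModelChev
  Cfsg.Agent.H162.GaussDec Cfsg.Agent.H162.GaussLevi Cfsg.Agent.H162.GaussSL
  Cfsg.Agent.H162.GaussMain Cfsg.Agent.H162.GaussPQ Cfsg.Agent.H162.GaussExc
open Cfsg.Lie Cfsg.Agent.ChevalleyStructure Cfsg.Agent.ChevalleyStructure.Elts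
  Cfsg.Agent.ChevalleyStructure.RootVec Cfsg.Agent.ChevalleyStructure.NPerm
  Cfsg.Agent.ChevalleyStructure.CoxeterGeomTypes Cfsg.Agent.Nodes.RGDChev Cfsg.Agent.KFacts.RgdChevCoord
open Cfsg.Agent.H130.War (SS PP)

universe u

/-- the table of a regular element of the torus -/
def ChkR (D : ChevalleyDatum) (l : ℕ) (m : Fin l → ℤ) (H : ℕ) : Prop :=
  ∀ q < D.nroots, ∑ i : Fin l, m i * D.cartan i q ≠ 0 ∧ |∑ i : Fin l, m i * D.cartan i q| ≤ H

instance (D : ChevalleyDatum) (l : ℕ) (m : Fin l → ℤ) (H : ℕ) : Decidable (ChkR D l m H) := by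
  unfold ChkR; infer_instance

section

variable {D : ChevalleyDatum} {l : ℕ} {M : CoxeterMatrix (Fin l)} (hp : IsType D l M) {K : Type u} [Field K]

theorem act_pow {m : Fin l → ℤ} (t : Kˣ) {r : ℕ} (hr : r < D.nroots) (e : ℕ) (a : K) :
    sg hp m t ^ e * xc hp (vec D l r) a * (sg hp m t ^ e)⁻¹ =
      xc hp (vec D l r) (((t ^ ((∑ i : Fin l, m i * D.cartan i r) * e) : Kˣ) : K) * a) := by
  induction e generalizing a with
  | zero => simp
  | succ e ih =>
    calc sg hp m t ^ (e + 1) * xc hp (vec D l r) a * (sg hp m t ^ (e + 1))⁻¹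
        = sg hp m t ^ e * (sg hp m t * xc hp (vec D l r) a * (sg hp m t)⁻¹) * (sg hp m t ^ e)⁻¹ := by
          rw [pow_succ]; group
      _ = _ := by
        rw [act_sg hp m t hr, ih, ← mul_assoc, ← Units.val_mul, ← zpow_add]
        congr 4
        push_cast
        ring

theorem noFix_pow {m : Fin l → ℤ} {H : ℕ} (hR : ChkR D l m H) (t : Kˣ) {e : ℕ} (he : e ≠ 0) (ht : H * e < orderOf t) :
    NoFix M.toCoxeterSystem hp.isCartan (XX D l K) ∅ (sg hp m t ^ e) := by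
  intro x hx _ a ha hsa
  obtain ⟨r, hr, rfl⟩ := (isRoot_iff hp _ x).1 hx
  obtain ⟨c, rfl⟩ := (mem_XX hp hr a).1 ha
  obtain ⟨h1, h2⟩ := hR r hr
  rw [act_pow hp t hr] at hsa
  have h3 := xc_inj hp hr hsa
  by_cases hc : c = 0
  · rw [hc, xc_zero hp hr]
  · exfalso
    obtain ⟨s, hs⟩ : ∃ s, s = ∑ i : Fin l, m i * D.cartan i r := ⟨_, rfl⟩
    rw [← hs] at h1 h2 h3
    have h4 : t ^ (s * e) = 1 := Units.ext (by
      rw [Units.val_one]
      exact mul_right_cancel₀ hc (by rw [h3, one_mul]))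
    have h5 : (orderOf t : ℤ) ∣ s * e := orderOf_dvd_iff_zpow_eq_one.2 h4
    have h6 : s * e ≠ 0 := mul_ne_zero h1 (by exact_mod_cast he)
    have h7 : (orderOf t : ℤ) ≤ |s * e| := Int.le_of_dvd (abs_pos.2 h6) ((dvd_abs _ _).2 h5)
    rw [abs_mul, Nat.abs_cast] at h7
    have h8 : |s| * (e : ℤ) ≤ H * e := mul_le_mul_of_nonneg_right h2 (by positivity)
    have h9 : ((H * e : ℕ) : ℤ) < orderOf t := by exact_mod_cast ht
    push_cast at h9
    linarith

variable [Finite K] (hl : 0 < l) (hG : IsSimpleGroup ↥(D.group K))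
  (hM : ∀ J : Finset (Fin l), J = ∅ ∨ J = Finset.univ ∨ ∃ a ∈ J, ∃ b, b ∉ J ∧ M a b ≠ 2)
  (p : ℕ) [Fact p.Prime] [CharP K p]

include hp hl hG hM in
/-- **Regular elements of the torus.** -/
theorem ss_torus {m : Fin l → ℤ} {H : ℕ} (hR : ChkR D l m H) {e : ℕ} (he : e ≠ 0) (hq : H * e < Nat.card K - 1) :
    SS p e ↥(D.group K) := by
  have := finite_W hp M.toCoxeterSystem
  have : Nonempty (Fin l) := ⟨⟨0, hl⟩⟩
  obtain ⟨t, ht⟩ := IsCyclic.exists_ofOrder_eq_natCard (α := Kˣ)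
  rw [Nat.card_units] at ht
  exact Cfsg.Agent.H928.War.Rgd.ss_reg (rgd (K := K) hp M.toCoxeterSystem p) (G1_eq_top hp _) (coord hp)
    (Cfsg.Agent.Nodes.ChevChart.irr_of hM) (sg_mem hp m t) (noFix_pow hp hR t he (by rw [ht]; exact hq))

include hp hl hG hM in
/-- **Two `p`-elements.** -/
theorem pp_chev : PP p ↥(D.group K) := by
  have := finite_W hp M.toCoxeterSystem
  have : Nonempty (Fin l) := ⟨⟨0, hl⟩⟩
  exact Cfsg.Agent.H928.War.Rgd.pp (rgd (K := K) hp M.toCoxeterSystem p) (G1_eq_top hp _) (coord hp)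
    (Cfsg.Agent.Nodes.ChevChart.irr_of hM)

end

theorem chkR_G2 : ChkR chevG2 2 ![3, 5] 5 := by decide +kernel

theorem chkR_F4 : ChkR chevF4 4 ![8, 15, 21, 11] 11 := by decide +kernel

theorem chkR_E6 : ChkR chevE6 6 ![8, 11, 15, 21, 15, 8] 11 := by decide +kernel

section

variable (K : Type u) [Field K] [Finite K] (p : ℕ) [Fact p.Prime] [CharP K p]

theorem ssT_E6 {e : ℕ} (he : e ≠ 0) (hq : 11 * e < Nat.card K - 1) : SS p e ↥(chevE6.group K) :=
  ss_torus Cfsg.Agent.Nodes.KindE.isType6 (by norm_num) (Cfsg.Agent.S1054.result chevE6 (by simp)).1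
    Cfsg.Agent.Nodes.ChevChart.irr6 p chkR_E6 he hq

theorem ssT_F4 {e : ℕ} (he : e ≠ 0) (hq : 11 * e < Nat.card K - 1) : SS p e ↥(chevF4.group K) :=
  ss_torus Cfsg.Agent.Nodes.KindF.isType (by norm_num) (Cfsg.Agent.S1054.result chevF4 (by simp)).1
    Cfsg.Agent.Nodes.ChevChart.irrF p chkR_F4 he hq

omit [Finite K] in
theorem simple_G2 (hK : 2 < Nat.card K) : IsSimpleGroup ↥(chevG2.group K) := by
  have : Finite K := Nat.finite_of_card_ne_zero (by omega)
  have := Fintype.ofFinite K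
  rw [Nat.card_eq_fintype_card] at hK
  obtain ⟨a, h1, h2⟩ : ∃ a : K, a ≠ 0 ∧ a ≠ 1 := by
    classical
    by_contra h
    push Not at h
    have h3 : (Finset.univ : Finset K) ⊆ {0, 1} := fun a _ => by
      rw [Finset.mem_insert, Finset.mem_singleton]
      by_cases h0 : a = 0
      · exact .inl h0
      · exact .inr (h a h0)
    have h4 := (Finset.card_le_card h3).trans (Finset.card_le_two)
    rw [Finset.card_univ] at h4
    omega
  exact (Cfsg.Agent.S1055.result ⟨a, h1, h2⟩).1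

theorem ssT_G2 {e : ℕ} (he : e ≠ 0) (hq : 5 * e < Nat.card K - 1) : SS p e ↥(chevG2.group K) :=
  ss_torus Cit.TypeDet.KindsEF.isTypeG (by norm_num) (simple_G2 K (by omega)) Cfsg.Agent.Nodes.ChevChart.irrG p chkR_G2
    he hq

/-! ### Two `p`-elements -/

theorem pp_E8 : PP p ↥(chevE8.group K) :=
  pp_chev Cfsg.Agent.Nodes.KindE.isType8 (by norm_num) (Cfsg.Agent.S1054.result chevE8 (by simp)).1
    Cfsg.Agent.Nodes.ChevChart.irr8 p

theorem pp_E7 : PP p ↥(chevE7.group K) :=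
  pp_chev Cfsg.Agent.Nodes.KindE.isType7 (by norm_num) (Cfsg.Agent.S1054.result chevE7 (by simp)).1
    Cfsg.Agent.Nodes.ChevChart.irr7 p

theorem pp_E6 : PP p ↥(chevE6.group K) :=
  pp_chev Cfsg.Agent.Nodes.KindE.isType6 (by norm_num) (Cfsg.Agent.S1054.result chevE6 (by simp)).1
    Cfsg.Agent.Nodes.ChevChart.irr6 p

theorem pp_F4 : PP p ↥(chevF4.group K) :=
  pp_chev Cfsg.Agent.Nodes.KindF.isType (by norm_num) (Cfsg.Agent.S1054.result chevF4 (by simp)).1
    Cfsg.Agent.Nodes.ChevChart.irrF p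

theorem pp_G2 (hK : 2 < Nat.card K) : PP p ↥(chevG2.group K) :=
  pp_chev Cit.TypeDet.KindsEF.isTypeG (by norm_num) (simple_G2 K hK) Cfsg.Agent.Nodes.ChevChart.irrG p

end

end Cfsg.Agent.H584.War.Tor
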